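import Cfsg.Agent.H314.CY.Loc
import Cfsg.Agent.H769.CY.RThree

/-!
# S4829, `p ∣ Q - 1` : the rank 3 row from one hyperbolic pair (helper314)

`rowA_of_point` : `rowA_of_r3` (helper769) with the local condition at a Sylow subgroup (`locQ_of_sylow`) and the
intersection numbers from one of them (`com_of_r3`); `inj_of_r3` : a point is determined by its stabilizer.
-/

set_option autoImplicit false
set_option linter.unusedSectionVars false

open MulAction

namespace Cfsg.Agent.H314.CY

open Cfsg Cfsg.Agent.H690.Spor.RankThree Cfsg.Agent.H690.Spor.RankThree.R3 Cfsg.Agent.H770.CY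

universe u v

/-- a point is determined by its stabilizer -/
theorem inj_of_r3 {S : Type u} [Group S] {X : Type v} [MulAction S X] [Finite X] {R : X → X → Prop} {k l : ℕ}
    (h : R3 S X R k l) (hk : 1 < k) (hl : 1 < l) (x y : X) (hxy : stabilizer S x = stabilizer S y) : x = y := by
  classical
  have := Fintype.ofFinite X
  by_contra hne
  by_cases hR : R x y
  · have h1 := h.cardk x
    rw [← h1, Finite.one_lt_card_iff_nontrivial] at hk
    obtain ⟨⟨z, hz⟩, hzy⟩ := exists_ne (⟨y, hR⟩ : {y // R x y})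
    obtain ⟨g, hg1, hg2⟩ := h.one x y x z hR hz
    have hg : g ∈ stabilizer S y := hxy ▸ mem_stabilizer_iff.2 hg1
    rw [mem_stabilizer_iff] at hg
    rw [hg] at hg2
    exact hzy (Subtype.ext hg2.symm)
  · have hn := h.cardn
    have h1 := h.cardk x
    obtain ⟨z, hz1, hz2, hz3⟩ : ∃ z, z ≠ x ∧ z ≠ y ∧ ¬ R x z := by
      by_contra hcon
      push Not at hcon
      have h2 : (Finset.univ : Finset X) ⊆ {x, y} ∪ Finset.univ.filter (fun y => R x y) := by
        intro z _
        rw [Finset.mem_union, Finset.mem_insert, Finset.mem_singleton, Finset.mem_filter]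
        by_cases e1 : z = x
        · exact Or.inl (Or.inl e1)
        · by_cases e2 : z = y
          · exact Or.inl (Or.inr e2)
          · exact Or.inr ⟨Finset.mem_univ _, hcon z e1 e2⟩
      have h3 := (Finset.card_le_card h2).trans (Finset.card_union_le _ _)
      rw [Finset.card_univ, ← Nat.card_eq_fintype_card, hn] at h3
      have h4 : (Finset.univ.filter (fun y => R x y)).card = k := by
        rw [← h1, Nat.card_eq_fintype_card, Fintype.card_subtype]
      have h5 : ({x, y} : Finset X).card ≤ 2 := Finset.card_le_two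
      omega
    obtain ⟨g, hg1, hg2⟩ := h.two x y x z hne hR hz1.symm hz3
    have hg : g ∈ stabilizer S y := hxy ▸ mem_stabilizer_iff.2 hg1
    rw [mem_stabilizer_iff] at hg
    rw [hg] at hg2
    exact hz2 hg2.symm

/-- **the row from one element of order a power of `p`** -/
theorem rowA_of_point {p : ℕ} [Fact p.Prime] {S : Type u} [Group S] [Fintype S] {X : Type v} [MulAction S X] [Finite X]
    {R : X → X → Prop} {k l b : ℕ} (h : R3 S X R k l) (hkl : k ≠ l)
    (hinj : ∀ x y : X, stabilizer S x = stabilizer S y → x = y) {x₁ y₁ : X} (hxy : x₁ ≠ y₁)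
    (hR : ¬ R x₁ y₁) (hb : com R x₁ y₁ = b) {r s : ℤ} (h1 : (k : ℤ) * (r + s + b) = k * k - k - l * b)
    (h2 : r * s = b - k) (hs : 1 ≤ s) (hps : (p : ℤ) ∣ s) (hpr : ¬ (p : ℤ) ∣ r) (hpk : ¬ p ∣ k)
    {x₀ : X} {z : S} {t : ℕ} (hz : z ^ p ^ t = 1) (hzx : z • x₀ = x₀)
    (hone : ∃ x', ∀ w, z • w = w → w ≠ x₀ → ¬ R x₀ w → w = x')
    (htwo : ∀ y, z • y = y → R x₀ y → ∃ w₁ w₂ : X, w₁ ≠ w₂ ∧ (z • w₁ = w₁ ∧ w₁ ≠ y ∧ ¬ R y w₁) ∧
      (z • w₂ = w₂ ∧ w₂ ≠ y ∧ ¬ R y w₂))
    (hst : ∀ (α : MulAut S) (x : X), ∃ y : X, (stabilizer S x).map (MulEquiv.toMonoidHom α) = stabilizer S y) :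
    RowA p S := by
  obtain ⟨a, ha, hb', hp⟩ := com_of_r3 h hxy hR hb
  have hk0 : (0 : ℤ) < k := by exact_mod_cast h.k0
  have hpZ : (k : ℤ) * k = k + k * a + l * b := by exact_mod_cast hp
  have h1' : r + s = a - b := by
    have h3 : (k : ℤ) * (r + s + b) = k * a := by rw [h1]; linear_combination hpZ
    have h4 := mul_left_cancel₀ hk0.ne' h3
    linear_combination h4
  have hQ := locQ_of_sylow h.trans h.inv (default : Sylow p S) hz hzx fun y hy hy' => nn_ne hone (htwo y hy hy')
  refine Cfsg.Agent.H769.CY.rowA_of_r3 h hkl hinj ha hb' h1' h2 hs hps hpr hpk (default : Sylow p S).isPGroup' ?_ hst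
  intro x y hx hy hxy
  obtain ⟨z, hz, hz'⟩ := hQ x hx
  exact ⟨z, hz, hz' y (hy z hz) hxy⟩

end Cfsg.Agent.H314.CY
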