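import Cfsg.Agent.H113.PSU.Rank3

/-!
# S4829, `p ∣ Q - 1`: the local condition at a Sylow subgroup (helper314)

`locQ_of_sylow` : the local condition `LocQ` of helper769 for a Sylow `p`-subgroup, from ONE `p`-element `z` which fixes
one point `x₀`;
`com_of_r3` : the intersection numbers of a rank 3 graph from one of them.
-/

set_option autoImplicit false
set_option linter.unusedSectionVars false

open MulAction

namespace Cfsg.Agent.H314.CY

open Cfsg.Agent.H690.Spor.RankThree Cfsg.Agent.H690.Spor.RankThree.R3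

universe u v

/-- the local number (the same text as `H769.CY.NN`) -/
noncomputable def nn {S : Type u} [Group S] {X : Type v} [MulAction S X] (R : X → X → Prop) (z : S) (y : X) : ℕ :=
  Nat.card {w : X // z • w = w ∧ w ≠ y ∧ ¬ R y w}

section

variable {S : Type u} [Group S] {X : Type v} [MulAction S X] {R : X → X → Prop}

theorem nn_conj (hinv : ∀ (g : S) (x y : X), R x y → R (g • x) (g • y)) (g z : S) (y : X) :
    nn R (g * z * g⁻¹) (g • y) = nn R z y := by
  have hinv' : ∀ (g : S) (x y : X), R (g • x) (g • y) ↔ R x y := by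
    intro g x y
    constructor
    · intro h
      have := hinv g⁻¹ _ _ h
      rwa [inv_smul_smul, inv_smul_smul] at this
    · exact hinv g x y
  refine (Nat.card_congr ((MulAction.toPerm g).subtypeEquiv fun w => ?_)).symm
  rw [MulAction.toPerm_apply, hinv', mul_smul, mul_smul, inv_smul_smul, smul_left_cancel_iff, ne_eq, ne_eq,
    smul_left_cancel_iff]

/-- **the local condition at a Sylow `p`-subgroup** -/
theorem locQ_of_sylow {p : ℕ} [Fact p.Prime] [Finite S] (htr : MulAction.IsPretransitive S X)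
    (hinv : ∀ (g : S) (x y : X), R x y → R (g • x) (g • y)) (Q : Sylow p S) {x₀ : X} {z : S} {k : ℕ}
    (hz : z ^ p ^ k = 1) (hzx : z • x₀ = x₀)
    (hloc : ∀ y, z • y = y → R x₀ y → nn R z y ≠ nn R z x₀) :
    ∀ x : X, (∀ g ∈ (Q : Subgroup S), g • x = x) →
      ∃ z ∈ (Q : Subgroup S), ∀ y, z • y = y → R x y → nn R z y ≠ nn R z x := by
  intro x hx
  obtain ⟨h, rfl⟩ := htr.exists_smul_eq x₀ x
  have hQ : (Q : Subgroup S) ≤ stabilizer S (h • x₀) := fun g hg => hx g hg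
  have hz' : h * z * h⁻¹ ∈ stabilizer S (h • x₀) := by
    rw [mem_stabilizer_iff, mul_smul, mul_smul, inv_smul_smul, hzx]
  -- the subgroup generated by `h z h⁻¹`
  have hp : IsPGroup p (Subgroup.zpowers (⟨h * z * h⁻¹, hz'⟩ : stabilizer S (h • x₀))) := by
    rintro ⟨g, i, rfl⟩
    refine ⟨k, ?_⟩
    apply Subtype.ext
    apply Subtype.ext
    simp only [SubgroupClass.coe_pow, SubgroupClass.coe_zpow, OneMemClass.coe_one]
    rw [conj_zpow, conj_pow, ← zpow_natCast, ← zpow_mul, mul_comm, zpow_mul, zpow_natCast, hz, one_zpow, mul_one,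
      mul_inv_cancel]
  obtain ⟨P, hP⟩ := hp.exists_le_sylow
  obtain ⟨g, hg⟩ := MulAction.exists_smul_eq (stabilizer S (h • x₀)) P (Q.subtype hQ)
  have h1 : MulAut.conj g (⟨h * z * h⁻¹, hz'⟩ : stabilizer S (h • x₀)) ∈ (Q.subtype hQ : Subgroup _) := by
    rw [← hg]
    exact ⟨_, hP (Subgroup.mem_zpowers _), rfl⟩
  have h2 : (g : S) * (h * z * h⁻¹) * (g : S)⁻¹ ∈ (Q : Subgroup S) := h1
  have hgx : (g : S) • (h • x₀) = h • x₀ := g.2
  obtain ⟨c, hc⟩ : ∃ c : S, c = (g : S) * h := ⟨_, rfl⟩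
  have e0 : (g : S) * (h * z * h⁻¹) * (g : S)⁻¹ = c * z * c⁻¹ := by rw [hc]; group
  have e1 : h • x₀ = c • x₀ := by rw [hc, mul_smul, hgx]
  rw [e0] at h2
  refine ⟨_, h2, fun y hy hxy => ?_⟩
  obtain ⟨y', rfl⟩ : ∃ y', y = c • y' := ⟨c⁻¹ • y, by rw [smul_inv_smul]⟩
  rw [e1] at hxy ⊢
  rw [nn_conj hinv, nn_conj hinv]
  refine hloc y' ?_ ?_
  · have := congrArg (fun x => c⁻¹ • x) hy
    simp only [mul_smul, inv_smul_smul] at this
    exact this
  · have := hinv c⁻¹ _ _ hxy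
    rwa [inv_smul_smul, inv_smul_smul] at this

/-- a convenient form of the local inequality -/
theorem nn_ne [Finite X] {z : S} {x y : X} (h1 : ∃ x', ∀ w, z • w = w → w ≠ x → ¬ R x w → w = x')
    (h2 : ∃ w₁ w₂ : X, w₁ ≠ w₂ ∧ (z • w₁ = w₁ ∧ w₁ ≠ y ∧ ¬ R y w₁) ∧ (z • w₂ = w₂ ∧ w₂ ≠ y ∧ ¬ R y w₂)) :
    nn R z y ≠ nn R z x := by
  obtain ⟨x', hx'⟩ := h1
  obtain ⟨w₁, w₂, hne, hw₁, hw₂⟩ := h2
  have e1 : nn R z x ≤ 1 := by
    refine Finite.card_le_one_iff_subsingleton.2 ⟨fun a b => Subtype.ext ?_⟩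
    rw [hx' a.1 a.2.1 a.2.2.1 a.2.2.2, hx' b.1 b.2.1 b.2.2.1 b.2.2.2]
  have e2 : 1 < nn R z y := by
    refine Finite.one_lt_card_iff_nontrivial.2 ⟨⟨w₁, hw₁⟩, ⟨w₂, hw₂⟩, fun h => hne (congrArg Subtype.val h)⟩
  omega

/-- **the intersection numbers** -/
theorem com_of_r3 [Finite S] [Finite X] {k l b : ℕ} (h : R3 S X R k l) {x₀ y₀ : X} (hxy : x₀ ≠ y₀) (hR : ¬ R x₀ y₀)
    (hb : com R x₀ y₀ = b) : ∃ a : ℕ, (∀ x y, R x y → com R x y = a) ∧ (∀ x y, x ≠ y → ¬ R x y → com R x y = b) ∧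
      k * k = k + k * a + l * b := by
  classical
  have := Fintype.ofFinite X
  obtain ⟨a, b', hab⟩ := h.exists_params
  have hp := h.params_eq hab
  have hbb : b' = b := by rw [← hb]; exact (Cfsg.Agent.H113.PSU.Rank3.params_b hab hxy hR).symm
  subst hbb
  refine ⟨a, fun x y hx => ?_, fun x y hx hx' => Cfsg.Agent.H113.PSU.Rank3.params_b hab hx hx', hp⟩
  have h1 := hab x y
  rw [sum_mul] at h1
  have e1 : dia x y = 0 := if_neg (by rintro rfl; exact h.irr _ hx)
  have e2 : adj R x y = 1 := if_pos hx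
  rw [e1, e2, mul_zero, mul_one, zero_add, sub_add_cancel] at h1
  exact_mod_cast h1

end

end Cfsg.Agent.H314.CY
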