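import Cfsg.Agent.H113.PSU.Chars
import Cfsg.Agent.H314.CY.Comb
import Cfsg.Agent.ClassicalGeometry.PSUAutMain
import Cfsg.Agent.ClassicalGeometry.PSUAutTorus

/-!
# S4829, `PSU_n(q)`, `p ∣ q - 1` : the action on the isotropic points (helper314)

`Pts hF hn` : the isotropic points with the action of `PSU n F q`; `r3p` : rank 3; `hst` : every automorphism maps the
stabilizers of points onto stabilizers of points.
-/

set_option autoImplicit false
set_option linter.unusedSectionVars false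

open MulAction Matrix

namespace Cfsg.Agent.H314.CY

open Cfsg Cfsg.Agent.LieClassical.HermBasic Cfsg.Agent.LieClassical.HermSiegel
open Cfsg.Agent.H690.Spor.RankThree Cfsg.Agent.H690.Spor.RankThree.R3 Cfsg.Agent.H113.PSU.Points
open Cfsg.Agent.ClassicalGeometry.PSUAutBasic Cfsg.Agent.ClassicalGeometry.PSUAutCount

universe u v

namespace Psu

variable {F : Type u} [Field F] [Fintype F] {q n m : ℕ}

/-- the centre acts trivially on the points -/
theorem center_smul (hF : Fintype.card F = q ^ 2) (hn : 3 ≤ n) {z : SU n F q} (hz : z ∈ Subgroup.center (SU n F q))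
    (y : Pt n F q) : z • y = y := by
  obtain ⟨c, hc, -, hc'⟩ := exists_scalar_of_mem_center hF hn hz
  obtain ⟨v, h0, hv, rfl⟩ := exists_pt y
  rw [smul_pt, pt_eq_iff]
  exact ⟨c, hc, hc' v⟩

/-- `PSU_n(q)` on the points -/
noncomputable def hom (hF : Fintype.card F = q ^ 2) (hn : 3 ≤ n) : PSU n F q →* Equiv.Perm (Pt n F q) :=
  QuotientGroup.lift (Subgroup.center (SU n F q)) (MulAction.toPermHom (SU n F q) (Pt n F q))
    (fun _ hz => Equiv.ext fun y => center_smul hF hn hz y)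

/-- the isotropic points, with the action of `PSU_n(q)` -/
def Pts (_hF : Fintype.card F = q ^ 2) (_hn : 3 ≤ n) : Type u := Pt n F q

noncomputable instance actPts (hF : Fintype.card F = q ^ 2) (hn : 3 ≤ n) : MulAction (PSU n F q) (Pts hF hn) :=
  MulAction.compHom (Pt n F q) (hom hF hn)

instance finPts (hF : Fintype.card F = q ^ 2) (hn : 3 ≤ n) : Finite (Pts hF hn) := finite_Pt (n := n) (F := F) (q := q)

/-- the point of a vector -/
def mk (hF : Fintype.card F = q ^ 2) (hn : 3 ≤ n) (v : Fin n → F) (h0 : v ≠ 0) (h : hermForm n F q v v = 0) :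
    Pts hF hn := pt v h0 h

theorem pr_smul (hF : Fintype.card F = q ^ 2) (hn : 3 ≤ n) (g : SU n F q) (x : Pt n F q) :
    (pr n F q g • (show Pts hF hn from x) : Pts hF hn) = (show Pts hF hn from (g • x : Pt n F q)) := rfl

theorem pr_smul_mk (hF : Fintype.card F = q ^ 2) (hn : 3 ≤ n) (g : SU n F q) {v : Fin n → F} (h0 : v ≠ 0)
    (h : hermForm n F q v v = 0) : pr n F q g • mk hF hn v h0 h =
      mk hF hn (act g v) (fun h1 => h0 ((act_eq_zero g).1 h1)) (by rw [herm_act, h]) := smul_pt g h0 h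

theorem exists_mk (hF : Fintype.card F = q ^ 2) (hn : 3 ≤ n) (x : Pts hF hn) :
    ∃ (v : Fin n → F) (h0 : v ≠ 0) (h : hermForm n F q v v = 0), x = mk hF hn v h0 h := exists_pt x

theorem mk_eq_iff (hF : Fintype.card F = q ^ 2) (hn : 3 ≤ n) {v w : Fin n → F} {h0 : v ≠ 0}
    {h : hermForm n F q v v = 0} {h0' : w ≠ 0} {h' : hermForm n F q w w = 0} :
    mk hF hn v h0 h = mk hF hn w h0' h' ↔ ∃ c : F, c ≠ 0 ∧ v = c • w := pt_eq_iff

/-- perpendicular and distinct -/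
def PRel (hF : Fintype.card F = q ^ 2) (hn : 3 ≤ n) (x y : Pts hF hn) : Prop := Rel (x : Pt n F q) (y : Pt n F q)

/-- perpendicularity of points -/
theorem prel_iff (hF : Fintype.card F = q ^ 2) (hn : 3 ≤ n) {v w : Fin n → F} {h0 : v ≠ 0}
    {h : hermForm n F q v v = 0} {h0' : w ≠ 0} {h' : hermForm n F q w w = 0} :
    PRel hF hn (mk hF hn v h0 h) (mk hF hn w h0' h') ↔ (¬ ∃ c : F, c ≠ 0 ∧ v = c • w) ∧ hermForm n F q v w = 0 :=
  rel_iff hF

/-- **rank 3** -/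
theorem r3p (hF : Fintype.card F = q ^ 2) (hm : 2 ≤ m) (hn : 3 ≤ m + 2) : ∃ b : ℕ, 0 < b ∧
    ((q : ℤ) ^ 2 - 1) * b = ((q : ℤ) ^ m - (-1) ^ m) * (q ^ (m - 1) + (-1) ^ m) ∧
    R3 (PSU (m + 2) F q) (Pts hF hn) (PRel hF hn) (q ^ 2 * b) (q ^ (2 * m + 1)) ∧
    ∃ x₀ y₀ : Pts hF hn, x₀ ≠ y₀ ∧ ¬ PRel hF hn x₀ y₀ ∧ com (PRel hF hn) x₀ y₀ = b := by
  obtain ⟨b, hb0, hb, h3, hxy⟩ := r3 (F := F) (m := m) hF hm
  refine ⟨b, hb0, hb, ?_, hxy⟩
  have htr := h3.trans
  refine ⟨⟨fun x y => ?_⟩, h3.symm, h3.irr, ?_, ?_, ?_, h3.cardk, h3.k0, h3.l0, h3.cardn⟩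
  · obtain ⟨g, hg⟩ := htr.exists_smul_eq (x : Pt (m + 2) F q) (y : Pt (m + 2) F q)
    exact ⟨pr _ F q g, hg⟩
  · intro g x y hxy
    obtain ⟨g, rfl⟩ := pr_surjective g
    exact h3.inv g x y hxy
  · intro x y x' y' h1 h2
    obtain ⟨g, hg1, hg2⟩ := h3.one x y x' y' h1 h2
    exact ⟨pr _ F q g, hg1, hg2⟩
  · intro x y x' y' h1 h2 h4 h5
    obtain ⟨g, hg1, hg2⟩ := h3.two x y x' y' h1 h2 h4 h5
    exact ⟨pr _ F q g, hg1, hg2⟩

section semi

/-- the semilinear map -/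
def sm (A : GU n F q) (ρ : F ≃+* F) (v : Fin n → F) : Fin n → F := gm A *ᵥ fun i => ρ (v i)

theorem sm_smul (A : GU n F q) (ρ : F ≃+* F) (c : F) (v : Fin n → F) : sm A ρ (c • v) = ρ c • sm A ρ v := by
  unfold sm
  rw [← Matrix.mulVec_smul]
  congr 1
  funext i
  rw [Pi.smul_apply, Pi.smul_apply, smul_eq_mul, map_mul, smul_eq_mul]

theorem sm_inj (A : GU n F q) (ρ : F ≃+* F) {v w : Fin n → F} (h : sm A ρ v = sm A ρ w) : v = w := by
  have h1 := congrArg (fun u => gm A⁻¹ *ᵥ u) h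
  simp only [sm, gm_inv_mulVec] at h1
  funext i
  exact ρ.injective (congrFun h1 i)

theorem sm_zero (A : GU n F q) (ρ : F ≃+* F) : sm A ρ 0 = 0 := by
  have h := sm_smul A ρ 0 0
  rwa [zero_smul, map_zero, zero_smul] at h

theorem act_sm (A : GU n F q) (ρ : F ≃+* F) (g : SU n F q) (v : Fin n → F) :
    act (semiConj A ρ g) (sm A ρ v) = sm A ρ (act g v) := act_semiConj A ρ g v

theorem herm_sm (A : GU n F q) (ρ : F ≃+* F) (u v : Fin n → F) :
    hermForm n F q (sm A ρ u) (sm A ρ v) = ρ (hermForm n F q u v) := herm_semi A ρ u v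

theorem mem_stab_iff (hF : Fintype.card F = q ^ 2) (hn : 3 ≤ n) {v : Fin n → F} {h0 : v ≠ 0}
    {h : hermForm n F q v v = 0} (g : SU n F q) :
    pr n F q g ∈ stabilizer (PSU n F q) (mk hF hn v h0 h) ↔ ∃ c : F, c ≠ 0 ∧ act g v = c • v := by
  rw [mem_stabilizer_iff, pr_smul_mk, mk_eq_iff]

/-- **automorphisms map stabilizers of points onto stabilizers of points** -/
theorem hst (hF : Fintype.card F = q ^ 2) (hn : 3 ≤ n) (h32 : ¬ (n = 3 ∧ q = 2)) (α : MulAut (PSU n F q))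
    (x : Pts hF hn) : ∃ y : Pts hF hn, (stabilizer (PSU n F q) x).map α.toMonoidHom = stabilizer (PSU n F q) y := by
  obtain ⟨A, ρ, rfl⟩ := ClassicalGeometry.PSUAutMain.exists_toAut hF hn h32 α
  obtain ⟨v, h0, hv, rfl⟩ := exists_mk hF hn x
  refine ⟨mk hF hn (sm A ρ v) (fun h1 => h0 (sm_inj A ρ (h1.trans (sm_zero A ρ).symm)))
    (by rw [herm_sm, hv, map_zero]), ?_⟩
  have key : ∀ g : SU n F q, pr n F q g ∈ stabilizer (PSU n F q) (mk hF hn v h0 hv) ↔
      toAut A ρ (pr n F q g) ∈ stabilizer (PSU n F q) (mk hF hn (sm A ρ v)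
        (fun h1 => h0 (sm_inj A ρ (h1.trans (sm_zero A ρ).symm))) (by rw [herm_sm, hv, map_zero])) := by
    intro g
    have e : toAut A ρ (pr n F q g) = pr n F q (semiConj A ρ g) := rfl
    rw [e, mem_stab_iff, mem_stab_iff, act_sm]
    constructor
    · rintro ⟨c, hc, hc'⟩
      exact ⟨ρ c, (map_ne_zero ρ).2 hc, by rw [hc', sm_smul]⟩
    · rintro ⟨c, hc, hc'⟩
      refine ⟨ρ.symm c, (map_ne_zero ρ.symm).2 hc, sm_inj A ρ ?_⟩
      rw [hc', sm_smul, ρ.apply_symm_apply]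
  ext w
  constructor
  · rintro ⟨w, hw, rfl⟩
    obtain ⟨g, rfl⟩ := pr_surjective w
    exact (key g).1 hw
  · intro hw
    obtain ⟨w, rfl⟩ := (toAut A ρ).surjective w
    obtain ⟨g, rfl⟩ := pr_surjective w
    exact ⟨_, (key g).2 hw, rfl⟩

end semi

end Psu

end Cfsg.Agent.H314.CY
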